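import Cfsg.Agent.LAE62.SylowBasics
import Cfsg.Prelude.Def_SubgroupEmbedding
import Mathlib.GroupTheory.Transfer

/-!
Abelian `2`-subgroups all of whose conjugates lie in products with subgroups of odd order.
-/

set_option autoImplicit false

open Subgroup

namespace Cfsg.Agent.LAE62.ExtClosed

variable {G : Type*} [Group G]

/-- Every conjugate of `H` lies in `K H` for some `H`-invariant subgroup `K` of odd order. -/
def OddClosed (H : Subgroup G) : Prop :=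
  ∀ g : G, ∃ K : Subgroup G, Odd (Nat.card K) ∧ H ≤ normalizer (K : Set G) ∧
    ∀ x ∈ H, g * x * g⁻¹ ∈ K ⊔ H

variable {K H : Subgroup G}

theorem exists_mul (hn : H ≤ normalizer (K : Set G)) {x : G} (hx : x ∈ K ⊔ H) :
    ∃ k ∈ K, ∃ u ∈ H, k * u = x := by
  rw [← SetLike.mem_coe, coe_mul_of_right_le_normalizer_left K H hn] at hx
  exact hx

theorem eq_one_of_pow_two {x : G} (hK : Odd (Nat.card K)) (hx : x ∈ K) {n : ℕ} (h : x ^ 2 ^ n = 1) : x = 1 := by
  have h1 : orderOf x ∣ Nat.card K := Subgroup.orderOf_dvd_natCard K hx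
  have h2 : orderOf x ∣ 2 ^ n := orderOf_dvd_of_pow_eq_one h
  refine orderOf_eq_one_iff.1 (Nat.eq_one_of_dvd_coprimes ?_ h1 h2)
  exact Nat.Coprime.pow_right n (Nat.coprime_two_right.2 hK)

theorem odd_order_of_mem {x : G} (hK : Odd (Nat.card K)) (hx : x ∈ K) : Odd (orderOf x) :=
  hK.of_dvd_nat (Subgroup.orderOf_dvd_natCard K hx)

theorem two_subgroup_eq (hK : Odd (Nat.card K)) (hn : H ≤ normalizer (K : Set G)) {S : Subgroup G}
    (hS : IsPGroup 2 S) (hHS : H ≤ S) (hSX : S ≤ K ⊔ H) : S ≤ H := by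
  intro s hs
  obtain ⟨k, hk, u, hu, rfl⟩ := exists_mul hn (hSX hs)
  have hkS : k ∈ S := by simpa using S.mul_mem hs (S.inv_mem (hHS hu))
  obtain ⟨n, hn'⟩ := hS ⟨k, hkS⟩
  rw [eq_one_of_pow_two hK hk (n := n) (by simpa using congrArg Subtype.val hn'), one_mul]
  exact hu

theorem mem_of_odd (hn : H ≤ normalizer (K : Set G)) (hH : IsPGroup 2 H) {x : G} (hx : x ∈ K ⊔ H)
    (ho : Odd (orderOf x)) : x ∈ K := by
  obtain ⟨k, hk, u, hu, rfl⟩ := exists_mul hn hx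
  have hrel : ∀ m : ℕ, ∃ k' ∈ K, (k * u) ^ m = k' * u ^ m := by
    intro m
    induction m with
    | zero => exact ⟨1, one_mem _, by simp⟩
    | succ m ih =>
      obtain ⟨k', hk', e⟩ := ih
      refine ⟨k' * (u ^ m * k * (u ^ m)⁻¹), K.mul_mem hk'
        ((mem_normalizer_iff.1 (hn (H.pow_mem hu m)) k).1 hk), ?_⟩
      rw [pow_succ, e, pow_succ]; group
  obtain ⟨k', hk', e⟩ := hrel (orderOf (k * u))
  rw [pow_orderOf_eq_one] at e
  have hu' : u ^ orderOf (k * u) ∈ K := by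
    rw [eq_inv_of_mul_eq_one_right e.symm]; exact K.inv_mem hk'
  obtain ⟨n, hn'⟩ := hH ⟨u, hu⟩
  have hn2 : u ^ 2 ^ n = 1 := by simpa using congrArg Subtype.val hn'
  have hcop : (2 ^ n).Coprime (orderOf (k * u)) := Nat.Coprime.pow_left n (Nat.coprime_two_left.2 ho)
  have : u ∈ K := by
    have hd : (orderOf u).Coprime (orderOf (k * u)) := hcop.coprime_dvd_left (orderOf_dvd_of_pow_eq_one hn2)
    obtain ⟨m, hm⟩ := exists_pow_eq_self_of_coprime hd.symm
    rw [← hm]; exact K.pow_mem hu' m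
  exact K.mul_mem hk this

theorem exists_conj_mem [Finite G] (hH : IsPGroup 2 H) (hK : Odd (Nat.card K)) (hn : H ≤ normalizer (K : Set G))
    {S : Subgroup G} (hS : IsPGroup 2 S) (hSX : S ≤ K ⊔ H) : ∃ k ∈ K, ∀ s ∈ S, k⁻¹ * s * k ∈ H := by
  haveI : Fact (Nat.Prime 2) := ⟨Nat.prime_two⟩
  set X := K ⊔ H with hX
  let P₀ : Sylow 2 X :=
    { toSubgroup := H.subgroupOf X
      isPGroup' := hH.of_equiv (subgroupOfEquivOfLe le_sup_right).symm
      is_maximal' := fun {Q} hQ hle => by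
        refine le_antisymm (fun q hq => ?_) hle
        refine two_subgroup_eq hK hn (hQ.map X.subtype) ?_ (map_subtype_le _) ⟨q, hq, rfl⟩
        intro h hh
        exact ⟨⟨h, le_sup_right (a := K) hh⟩, hle hh, rfl⟩ }
  obtain ⟨Q, hQ⟩ := (hS.of_equiv (subgroupOfEquivOfLe hSX).symm).exists_le_sylow
  obtain ⟨x, hx⟩ := MulAction.exists_smul_eq X Q P₀
  obtain ⟨k, hk, u, hu, hku⟩ := exists_mul hn (X.inv_mem x.2)
  refine ⟨k, hk, fun s hs => ?_⟩
  have h1 : x * ⟨s, hSX hs⟩ * x⁻¹ ∈ (P₀ : Subgroup X) := by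
    rw [← hx]
    exact ⟨⟨s, hSX hs⟩, hQ (show (⟨s, hSX hs⟩ : X) ∈ S.subgroupOf X from hs), rfl⟩
  have h2 : (x : G) * s * (x : G)⁻¹ ∈ H := h1
  have hx' : (x : G) = u⁻¹ * k⁻¹ := by rw [← _root_.mul_inv_rev, hku, inv_inv]
  rw [hx'] at h2
  have h3 := H.mul_mem (H.mul_mem hu h2) (H.inv_mem hu)
  convert h3 using 1
  group

theorem isPGroup_map_conj (hH : IsPGroup 2 H) (g : G) : IsPGroup 2 (H.map (MulAut.conj g).toMonoidHom) :=
  hH.map _

theorem exists_decomp [Finite G] (hH : IsPGroup 2 H) (hQ : OddClosed H) (g : G) :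
    ∃ K : Subgroup G, Odd (Nat.card K) ∧ H ≤ normalizer (K : Set G) ∧
      ∃ k ∈ K, k⁻¹ * g ∈ normalizer (H : Set G) := by
  obtain ⟨K, hK, hn, hg⟩ := hQ g
  obtain ⟨k, hk, hks⟩ := exists_conj_mem hH hK hn (isPGroup_map_conj hH g) (S := H.map (MulAut.conj g).toMonoidHom)
    (by rintro _ ⟨x, hx, rfl⟩; exact hg x hx)
  refine ⟨K, hK, hn, k, hk, mem_normalizer_of_conj_mem fun x hx => ?_⟩
  have h := hks (g * x * g⁻¹) ⟨x, hx, rfl⟩
  convert h using 1
  group

theorem OddClosed.conj_eq_of_le [Finite G] (hH : IsPGroup 2 H) (hQ : OddClosed H) {P : Subgroup G}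
    (hP : IsPGroup 2 P) (hHP : H ≤ P) {g : G} (hg : ∀ x ∈ H, g * x * g⁻¹ ∈ P) : g ∈ normalizer (H : Set G) := by
  obtain ⟨K, hK, hn, hgX⟩ := hQ g
  have h := two_subgroup_eq hK hn (S := P ⊓ (K ⊔ H)) (hP.to_le inf_le_left) (le_inf hHP le_sup_right) inf_le_right
  exact mem_normalizer_of_conj_mem fun x hx => h ⟨hg x hx, hgX x hx⟩

theorem OddClosed.subgroup (hQ : OddClosed H) {C : Subgroup G} (hHC : H ≤ C) :
    OddClosed (H.subgroupOf C) := by
  intro g
  obtain ⟨K, hK, hn, hg⟩ := hQ g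
  refine ⟨K.subgroupOf C, ?_, fun x hx => ?_, fun x hx => ?_⟩
  · refine hK.of_dvd_nat ?_
    rw [← card_map_of_injective C.subtype_injective, subgroupOf_map_subtype]
    exact card_dvd_of_le inf_le_left
  · rw [mem_normalizer_iff]
    intro y
    exact mem_normalizer_iff.1 (hn hx) y
  · obtain ⟨k, hk, u, hu, e⟩ := exists_mul hn (hg x hx)
    have hkC : k ∈ C := by
      rw [show k = ((g : G) * x * (g : G)⁻¹) * u⁻¹ by rw [← e]; group]
      exact C.mul_mem (C.mul_mem (C.mul_mem g.2 x.2) (C.inv_mem g.2)) (C.inv_mem (hHC hu))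
    have : g * x * g⁻¹ = ⟨k, hkC⟩ * ⟨u, hHC hu⟩ := Subtype.ext e.symm
    rw [this]
    exact mul_mem (mem_sup_left (show (⟨k, hkC⟩ : C) ∈ K.subgroupOf C from hk))
      (mem_sup_right (show (⟨u, hHC hu⟩ : C) ∈ H.subgroupOf C from hu))

theorem OddClosed.invariant [Finite G] (hH : IsPGroup 2 H) (hQ : OddClosed H) {A : Subgroup G} (hA : A ≤ H)
    (hinv : normalizer (H : Set G) ≤ normalizer (A : Set G)) : OddClosed A := by
  intro g
  obtain ⟨K, hK, hn, k, hk, hkg⟩ := exists_decomp hH hQ g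
  refine ⟨K, hK, hA.trans hn, fun x hx => ?_⟩
  have h1 := (mem_normalizer_iff.1 (hinv hkg) x).1 hx
  rw [show g * x * g⁻¹ = k * (k⁻¹ * g * x * (k⁻¹ * g)⁻¹) * k⁻¹ by group]
  exact mul_mem (mul_mem (mem_sup_left hk) (mem_sup_right h1)) (inv_mem (mem_sup_left hk))

theorem OddClosed.map {G' : Type*} [Group G'] [Finite G] (hQ : OddClosed H) (f : G →* G')
    (hf : Function.Surjective f) : OddClosed (H.map f) := by
  intro g'
  obtain ⟨g, rfl⟩ := hf g'
  obtain ⟨K, hK, hn, hg⟩ := hQ g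
  refine ⟨K.map f, hK.of_dvd_nat (card_map_dvd K f), ?_, ?_⟩
  · exact (map_mono hn).trans (le_normalizer_map f)
  · rintro _ ⟨x, hx, rfl⟩
    rw [← map_inv, ← map_mul, ← map_mul, ← Subgroup.map_sup]
    exact mem_map_of_mem f (hg x hx)

/-- An extremely closed abelian `2`-subgroup is odd-closed. -/
theorem oddClosed_of_isExtremelyClosed [Finite G] (hH : IsPGroup 2 H) (hab : IsMulCommutative H)
    (hcl : Cfsg.IsExtremelyClosed H) : OddClosed H := by
  haveI : Fact (Nat.Prime 2) := ⟨Nat.prime_two⟩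
  intro g
  set X := H ⊔ H.map (MulAut.conj g).toMonoidHom with hX
  have hHX : H ≤ X := le_sup_left
  set H' := H.subgroupOf X with hH'
  have hH'p : IsPGroup 2 H' := hH.of_equiv (subgroupOfEquivOfLe hHX).symm
  have hN : normalizer (H' : Set X) ≤ H' := by
    intro x hx
    show (x : G) ∈ H
    rw [← hcl g]
    refine ⟨x.2, mem_normalizer_of_conj_mem fun y hy => ?_⟩
    exact (mem_normalizer_iff.1 hx ⟨y, hHX hy⟩).1 hy
  obtain ⟨n, hn⟩ := IsPGroup.iff_card.1 hH'p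
  have hidx : ¬ 2 ∣ H'.index := by
    intro hd
    have h1 : 2 ^ (n + 1) ∣ Nat.card X := by
      rw [← H'.card_mul_index, hn, pow_succ]
      exact mul_dvd_mul_left _ hd
    have h2 := Sylow.prime_dvd_card_quotient_normalizer h1 hn
    have htop : comap (normalizer (H' : Set X)).subtype H' = ⊤ := eq_top_iff.2 fun y _ => hN y.2
    rw [← Subgroup.index_eq_card, htop, index_top] at h2
    omega
  obtain ⟨P, hP⟩ : ∃ P : Sylow 2 X, (P : Subgroup X) = H' := ⟨hH'p.toSylow hidx, rfl⟩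
  have hPc : normalizer ((P : Subgroup X) : Set X) ≤ centralizer ((P : Subgroup X) : Set X) := by
    rw [hP]
    exact fun x hx => mem_centralizer_iff.2 fun y hy => Subtype.ext
      (congrArg (fun z : H => (z : G)) (hab.is_comm.comm (⟨y, hy⟩ : H) ⟨x, hN hx⟩))
  obtain ⟨K₀, hKn, hc⟩ : ∃ K₀ : Subgroup X, K₀.Normal ∧ IsComplement' K₀ (P : Subgroup X) :=
    ⟨(MonoidHom.transferSylow P hPc).ker, MonoidHom.normal_ker _, MonoidHom.ker_transferSylow_isComplement' P hPc⟩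
  rw [hP] at hc
  refine ⟨K₀.map X.subtype, ?_, fun h hh => ?_, fun x hx => ?_⟩
  · rw [card_subtype, ← hc.index_eq_card, Nat.odd_iff]
    omega
  · refine mem_normalizer_of_conj_mem ?_
    rintro _ ⟨k, hk, rfl⟩
    exact ⟨⟨h, hHX hh⟩ * k * ⟨h, hHX hh⟩⁻¹, hKn.conj_mem k hk _, rfl⟩
  · have hy : g * x * g⁻¹ ∈ X := mem_sup_right ⟨x, hx, rfl⟩
    have h1 : (⟨g * x * g⁻¹, hy⟩ : X) ∈ K₀ ⊔ H' := by
      rw [hc.sup_eq_top]; exact mem_top _
    have h2 := mem_map_of_mem X.subtype h1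
    rw [Subgroup.map_sup, hH', subgroupOf_map_subtype, inf_eq_left.2 hHX] at h2
    exact h2

end Cfsg.Agent.LAE62.ExtClosed
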