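import Cfsg.Agent.Brauer.WeakOrth
import Cfsg.Agent.Char.Kernel

/-!
Elementary facts on irreducible characters: integrality at involutions and positivity.
-/

set_option autoImplicit false

namespace Cfsg.Agent.LAE62.ExtClosed

open Cfsg
open scoped ComplexConjugate

universe u

variable {G : Type u} [Group G] [Finite G]

/-- Values at elements squaring to one are rational integers. -/
theorem exists_int_value {χ : G → ℂ} (hχ : IsIrrCharacter G χ) {x : G} (hx : x * x = 1) :
    ∃ z : ℤ, χ x = z := by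
  obtain ⟨n, ρ, -, rfl⟩ := hχ
  obtain ⟨ε, hε, hpow⟩ := Char.exists_character_eq_sum_roots ρ x
  have h1 := hpow 1
  simp only [pow_one] at h1
  rw [h1]
  have hd : orderOf x ∣ 2 := orderOf_dvd_of_pow_eq_one (by rw [pow_two, hx])
  have : ∀ i, ∃ z : ℤ, ε i = z := fun i => by
    obtain ⟨c, hc⟩ := hd
    have h2 : ε i ^ 2 = 1 := by rw [hc, pow_mul, hε i, one_pow]
    rcases sq_eq_one_iff.1 h2 with e | e
    · exact ⟨1, by rw [e]; norm_num⟩
    · exact ⟨-1, by rw [e]; norm_num⟩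
  choose z hz using this
  exact ⟨∑ i, z i, by push_cast; exact Finset.sum_congr rfl fun i _ => hz i⟩

theorem value_eq_re {χ : G → ℂ} (hχ : IsIrrCharacter G χ) {x : G} (hx : x * x = 1) :
    χ x = ((χ x).re : ℂ) := by
  obtain ⟨z, hz⟩ := exists_int_value hχ hx
  rw [hz]; norm_num

theorem conj_value {χ : G → ℂ} (hχ : IsIrrCharacter G χ) {x : G} (hx : x * x = 1) :
    conj (χ x) = χ x := by
  rw [value_eq_re hχ hx, Complex.conj_ofReal]

/-- A character is a positive function on the group. -/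
theorem gram_nonneg (χ : IrrCharacter G) {ι : Type*} [Fintype ι] (u : ι → G) (c : ι → ℝ) :
    0 ≤ (∑ i, ∑ j, ((c i * c j : ℝ) : ℂ) * (χ : G → ℂ) ((u j)⁻¹ * u i)).re := by
  classical
  haveI := Fintype.ofFinite G
  obtain ⟨d, hd, hd1⟩ := Char.irr_one_pos χ.2
  set F : G → ℂ := fun w => ∑ i, (c i : ℂ) * (χ : G → ℂ) (w * u i) with hF
  have hkey : ∀ i j, ∑ w : G, (χ : G → ℂ) (w * u i) * conj ((χ : G → ℂ) (w * u j)) =
      (Nat.card G : ℂ) * (χ : G → ℂ) ((u j)⁻¹ * u i) / (χ : G → ℂ) 1 := by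
    intro i j
    have h := Brauer.irr_sum_mul χ χ ((u j)⁻¹ * u i)
    rw [if_pos rfl] at h
    rw [← h, ← Equiv.sum_comp (Equiv.mulRight (u j)⁻¹)]
    refine Finset.sum_congr rfl fun w _ => ?_
    rw [Equiv.coe_mulRight, inv_mul_cancel_right, mul_assoc w, Char.irr_inv χ.2]
  have hsum : ∑ w : G, F w * conj (F w) =
      (Nat.card G : ℂ) / (χ : G → ℂ) 1 * ∑ i, ∑ j, ((c i * c j : ℝ) : ℂ) * (χ : G → ℂ) ((u j)⁻¹ * u i) := by
    simp only [hF, map_sum, map_mul, Complex.conj_ofReal, Finset.sum_mul, Finset.mul_sum]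
    rw [Finset.sum_comm]
    conv_rhs => rw [Finset.sum_comm]
    refine Finset.sum_congr rfl fun j _ => ?_
    rw [Finset.sum_comm]
    refine Finset.sum_congr rfl fun i _ => ?_
    calc ∑ w : G, (c i : ℂ) * (χ : G → ℂ) (w * u i) * ((c j : ℂ) * conj ((χ : G → ℂ) (w * u j)))
        = (c i : ℂ) * (c j : ℂ) * ∑ w : G, (χ : G → ℂ) (w * u i) * conj ((χ : G → ℂ) (w * u j)) := by
          rw [Finset.mul_sum]; exact Finset.sum_congr rfl fun w _ => by ring
      _ = _ := by rw [hkey]; push_cast; ring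
  have hnn : 0 ≤ (∑ w : G, F w * conj (F w)).re := by
    rw [Complex.re_sum]
    exact Finset.sum_nonneg fun w _ => by rw [Complex.mul_conj]; simpa using Complex.normSq_nonneg _
  rw [hsum, hd1, show (Nat.card G : ℂ) / (d : ℂ) = (((Nat.card G : ℝ) / d : ℝ) : ℂ) by push_cast; rfl,
    Complex.re_ofReal_mul] at hnn
  have hpos : (0 : ℝ) < (Nat.card G : ℝ) / d := by
    have : 0 < Nat.card G := Nat.card_pos
    positivity
  exact (mul_nonneg_iff_of_pos_left hpos).1 hnn

/-- The character sum over a subgroup is nonnegative. -/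
theorem sum_subgroup_nonneg (χ : IrrCharacter G) (H : Subgroup G) [Fintype H] :
    0 ≤ (∑ x : H, (χ : G → ℂ) x).re := by
  have h := gram_nonneg χ (fun x : H => (x : G)) (fun _ => 1)
  have e : ∑ i : H, ∑ j : H, (((1 : ℝ) * 1 : ℝ) : ℂ) * (χ : G → ℂ) ((j : G)⁻¹ * i) =
      (Fintype.card H : ℂ) * ∑ x : H, (χ : G → ℂ) x := by
    rw [Finset.sum_comm]
    rw [Finset.sum_congr rfl (g := fun _ => ∑ x : H, (χ : G → ℂ) x) fun j _ => ?_]
    · rw [Finset.sum_const, Finset.card_univ, nsmul_eq_mul]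
    · rw [← Equiv.sum_comp (Equiv.mulLeft j)]
      refine Finset.sum_congr rfl fun x _ => ?_
      simp
  rw [e, show (Fintype.card H : ℂ) = ((Fintype.card H : ℝ) : ℂ) by norm_num, Complex.re_ofReal_mul] at h
  exact (mul_nonneg_iff_of_pos_left (by exact_mod_cast Fintype.card_pos)).1 h

/-- A character at a product of two involutions. -/
theorem value_mul_ge (χ : IrrCharacter G) {a b : G} (ha : a * a = 1) (hb : b * b = 1) :
    ((χ : G → ℂ) a).re + ((χ : G → ℂ) b).re ≤ ((χ : G → ℂ) 1).re + ((χ : G → ℂ) (a * b)).re := by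
  have hai : a⁻¹ = a := inv_eq_of_mul_eq_one_right ha
  have hbi : b⁻¹ = b := inv_eq_of_mul_eq_one_right hb
  have hcl := Char.irr_isClassFunction χ.2
  have h := gram_nonneg χ (![1, a, b, b * a]) (![1, -1, -1, 1])
  have e1 : (χ : G → ℂ) (b * a) = (χ : G → ℂ) (a * b) := Char.isClassFunction_mul_comm hcl _ _
  have e2 : (χ : G → ℂ) (a * b * a) = (χ : G → ℂ) b := by
    conv_lhs => rw [← hcl (a * b * a) a]
    rw [show a * (a * b * a) * a⁻¹ = a * a * b by group, ha, one_mul]
  have e3 : (χ : G → ℂ) (b * a * b) = (χ : G → ℂ) a := by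
    conv_lhs => rw [← hcl (b * a * b) b]
    rw [show b * (b * a * b) * b⁻¹ = b * b * a by group, hb, one_mul]
  simp only [Fin.sum_univ_four, Matrix.cons_val_zero, Matrix.cons_val_one, Matrix.cons_val,
    _root_.mul_inv_rev, hai, hbi, inv_one, one_mul, mul_one] at h
  simp only [ha, hb, ← mul_assoc, mul_assoc _ b b, mul_one, one_mul, e1, e2] at h
  norm_num at h
  linarith

/-- A character equal to its degree everywhere is trivial. -/
theorem eq_trivial_of_forall (χ : IrrCharacter G) (h : ∀ g, (χ : G → ℂ) g = (χ : G → ℂ) 1) :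
    (χ : G → ℂ) = fun _ => 1 := by
  classical
  haveI := Fintype.ofFinite G
  obtain ⟨d, -, hd⟩ := Char.irr_one_pos χ.2
  have h1 := Char.classInner_irr_self χ.2
  have hG : (Nat.card G : ℂ) ≠ 0 := Nat.cast_ne_zero.mpr Nat.card_pos.ne'
  simp only [classInner, h, hd, map_natCast, Finset.sum_const, Finset.card_univ, nsmul_eq_mul,
    ← Nat.card_eq_fintype_card] at h1
  rw [← mul_assoc, inv_mul_cancel₀ hG, one_mul, ← Nat.cast_mul, Nat.cast_eq_one, mul_eq_one] at h1
  funext g
  rw [h g, hd, h1.1, Nat.cast_one]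

end Cfsg.Agent.LAE62.ExtClosed
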