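import Cfsg.Agent.LAE62.ExtClosed.Section
import Cfsg.Agent.LAE62.ExtClosed.CharFacts

/-!
The class multiplication argument: an element of `H` with an orbit of odd size is fixed.
-/

set_option autoImplicit false

open Subgroup

namespace Cfsg.Agent.LAE62.ExtClosed

open Cfsg
open scoped ComplexConjugate

universe u

variable {G : Type u} [Group G] [Finite G] {H : Subgroup G}

/-- Weak orthogonality between odd elements and involutions in the principal block. -/
theorem principal_orth {M : Ideal AlgInt} (hM : IsPModular 2 M) [DecidableEq (IrrCharacter G)]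
    [Fintype (IrrCharacter G)] (B : Finset (IrrCharacter G)) (hB : ∀ χ, χ ∈ B ↔ χ ∈ principalBlock M G) {y u : G}
    (hy : Odd (orderOf y)) (hu : u * u = 1) (hu1 : u ≠ 1) :
    ∑ χ ∈ B, (χ : G → ℂ) y * (χ : G → ℂ) u = 0 := by
  classical
  haveI : M.IsPrime := hM.2.1.isPrime
  haveI := Fintype.ofFinite G
  have h := Brauer.weakOrth_of_integral hM (principalBlock M G)
    (fun g => Block.blockCoeff_memLocalRing
      (by rw [Brauer.principalBlock_eq_blockOf_trivial]; exact Block.isPBlock_blockOf _) g)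
    (x := y) (y := u) (Nat.two_dvd_ne_zero.2 (Nat.odd_iff.1 hy)) (by rw [Invol.orderOf_eq_two hu hu1])
  rw [finsum_mem_eq_toFinset_sum] at h
  rw [← h]
  refine Finset.sum_congr ?_ fun χ _ => by rw [conj_value χ.2 hu]
  ext χ
  simp [hB]

theorem trivial_of_forall (hgen : normalClosure (H : Set G) = ⊤) (χ : IrrCharacter G)
    (h : ∀ x ∈ H, (χ : G → ℂ) x = (χ : G → ℂ) 1) : χ = Char.trivialIrr G := by
  obtain ⟨K, hKn, hK⟩ := Char.isCharacter_exists_kernel (Char.isCharacter_of_irr χ.2)
  have hle : normalClosure (H : Set G) ≤ K := normalClosure_le_normal fun x hx => (hK x).2 (h x hx)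
  rw [hgen] at hle
  exact Subtype.ext (eq_trivial_of_forall χ fun g => (hK g).1 (hle (mem_top g)))

set_option maxHeartbeats 1000000 in
theorem orbit_card_eq_one (hH : IsPGroup 2 H) (hel : ∀ x ∈ H, x * x = 1) (hcm : ∀ x ∈ H, ∀ y ∈ H, x * y = y * x)
    (hQ : OddClosed H) (hZ : ∀ x ∈ H, x ∈ center G → x = 1) (hloc : Local H)
    (hgen : normalClosure (H : Set G) = ⊤) {a : G} (ha : a ∈ H) (ha1 : a ≠ 1) (hodd : Odd (orb H a).card) :
    (orb H a).card = 1 := by
  classical
  haveI : Fact (Nat.Prime 2) := ⟨Nat.prime_two⟩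
  haveI := Fintype.ofFinite G
  haveI := Fintype.ofFinite (IrrCharacter G)
  obtain ⟨M, hM⟩ := BlkChar.exists_isPModular 2 Nat.prime_two
  haveI : M.IsPrime := hM.2.1.isPrime
  set B : Finset (IrrCharacter G) := Finset.univ.filter fun χ => χ ∈ principalBlock M G with hBdef
  have hB : ∀ χ, χ ∈ B ↔ χ ∈ principalBlock M G := fun χ => by simp [hBdef]
  have horth := fun {y u : G} => principal_orth hM B hB (y := y) (u := u)
  have horth1 : ∀ {u : G}, u * u = 1 → u ≠ 1 → ∑ χ ∈ B, (χ : G → ℂ) 1 * (χ : G → ℂ) u = 0 := fun hu hu1 =>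
    horth (by rw [orderOf_one]; exact odd_one) hu hu1
  choose f hf hfn using fun g : G => exists_img hH hel hQ ha g
  have hforb : ∀ g, f g ∈ orb H a := fun g => mem_orb.2 (hfn g)
  have hG : (Nat.card G : ℂ) ≠ 0 := Nat.cast_ne_zero.mpr Nat.card_pos.ne'
  -- the product of the class sum of a conjugate of `a` with an element of `H`
  have hmul : ∀ χ : IrrCharacter G, ∀ b x : G, ∑ g : G, (χ : G → ℂ) (x * (g * b * g⁻¹)) =
      (Nat.card G : ℂ) * (χ : G → ℂ) b * (χ : G → ℂ) x / (χ : G → ℂ) 1 := fun χ b x => by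
    rw [← Brauer.irr_conj_sum' χ.2 b x]
    exact Finset.sum_congr rfl fun g _ => Char.isClassFunction_mul_comm (Char.irr_isClassFunction χ.2) _ _
  set S : IrrCharacter G → ℂ := fun χ => ∑ x : H, (χ : G → ℂ) x with hS
  have hQid : ∀ b ∈ H, b ≠ 1 → ∀ d ∈ H, d ≠ 1 →
      ∑ χ ∈ B, S χ * (χ : G → ℂ) b * (χ : G → ℂ) d / (χ : G → ℂ) 1 = ∑ χ ∈ B, (χ : G → ℂ) d * S χ := by
    intro b hb hb1 d hd hd1
    apply mul_left_cancel₀ hG
    choose f hf hfn using fun g : G => exists_img hH hel hQ hb g
    set Ψ : G → ℂ := fun u => if u = 1 then 0 else ∑ χ ∈ B, (χ : G → ℂ) d * (χ : G → ℂ) u with hΨ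
    have hterm : ∀ g : G, ∀ x : H,
        ∑ χ ∈ B, (χ : G → ℂ) d * (χ : G → ℂ) (x * (g * b * g⁻¹)) = Ψ (x * f g) := by
      intro g x
      by_cases hxc : (x : G) = f g
      · rw [hΨ]
        dsimp only
        rw [hxc, hel _ (hf g).1, if_pos rfl, ← horth (y := f g * (g * b * g⁻¹)) ?_ (hel d hd) hd1]
        · exact Finset.sum_congr rfl fun χ _ => mul_comm _ _
        · rw [show f g * (g * b * g⁻¹) = f g * ((g * b * g⁻¹) * f g) * (f g)⁻¹ by group, Invol.orderOf_conj]
          exact (hf g).2
      · rw [hΨ]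
        dsimp only
        rw [if_neg fun h => hxc ((mul_eq_one_iff_eq_inv.1 h).trans
          (inv_eq_of_mul_eq_one_right (hel _ (hf g).1)))]
        refine Finset.sum_congr rfl fun χ hχ => ?_
        rw [value_mul hH hel hcm hQ hZ hloc hM ((hB χ).1 hχ) hb hb1 (hf g) x.2 hxc]
    calc (Nat.card G : ℂ) * ∑ χ ∈ B, S χ * (χ : G → ℂ) b * (χ : G → ℂ) d / (χ : G → ℂ) 1
        = ∑ χ ∈ B, (χ : G → ℂ) d * ∑ x : H, ∑ g : G, (χ : G → ℂ) (x * (g * b * g⁻¹)) := by
          rw [Finset.mul_sum]
          refine Finset.sum_congr rfl fun χ _ => ?_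
          simp only [hmul, hS, Finset.sum_mul, Finset.mul_sum, Finset.sum_div]
          exact Finset.sum_congr rfl fun x _ => by ring
      _ = ∑ g : G, ∑ x : H, Ψ (x * f g) := by
          simp only [Finset.mul_sum]
          rw [Finset.sum_comm, Finset.sum_congr rfl (fun x _ => Finset.sum_comm), Finset.sum_comm]
          exact Finset.sum_congr rfl fun g _ => Finset.sum_congr rfl fun x _ => hterm g x
      _ = ∑ _g : G, ∑ x : H, Ψ x := by
          refine Finset.sum_congr rfl fun g _ => ?_
          rw [← Equiv.sum_comp (Equiv.mulRight (⟨f g, (hf g).1⟩ : H)) fun x : H => Ψ x]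
          rfl
      _ = (Nat.card G : ℂ) * ∑ χ ∈ B, (χ : G → ℂ) d * S χ := by
          rw [Finset.sum_const, Finset.card_univ, nsmul_eq_mul, ← Nat.card_eq_fintype_card]
          congr 1
          simp only [hS, Finset.mul_sum]
          rw [Finset.sum_comm (s := B)]
          refine Finset.sum_congr rfl fun x _ => ?_
          by_cases hx : (x : G) = 1
          · rw [hΨ]
            dsimp only
            rw [if_pos hx, hx, ← horth1 (hel d hd) hd1]
            exact Finset.sum_congr rfl fun χ _ => mul_comm _ _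
          · rw [hΨ]
            dsimp only
            rw [if_neg hx]
  -- real forms
  set v : IrrCharacter G → G → ℝ := fun χ x => ((χ : G → ℂ) x).re with hvdef
  set deg : IrrCharacter G → ℝ := fun χ => ((χ : G → ℂ) 1).re with hdeg
  have hv : ∀ χ : IrrCharacter G, ∀ x ∈ H, (χ : G → ℂ) x = (v χ x : ℂ) := fun χ x hx => value_eq_re χ.2 (hel x hx)
  have hd : ∀ χ : IrrCharacter G, (χ : G → ℂ) 1 = (deg χ : ℂ) := fun χ => hv χ 1 (one_mem H)
  have hdpos : ∀ χ : IrrCharacter G, 0 < deg χ := fun χ => by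
    obtain ⟨n, hn, e⟩ := Char.irr_one_pos χ.2
    simp only [hdeg, e, Complex.natCast_re]
    exact_mod_cast hn
  set s : IrrCharacter G → ℝ := fun χ => ∑ x : H, v χ x with hsdef
  have hs : ∀ χ, S χ = (s χ : ℂ) := fun χ => by
    simp only [hS, hsdef, Complex.ofReal_sum]
    exact Finset.sum_congr rfl fun x _ => hv χ x x.2
  have hs0 : ∀ χ, 0 ≤ s χ := fun χ => by
    have := sum_subgroup_nonneg χ H
    rwa [show (∑ x : H, (χ : G → ℂ) x) = (s χ : ℂ) from hs χ, Complex.ofReal_re] at this
  have hQr : ∀ b ∈ H, b ≠ 1 → ∀ d ∈ H, d ≠ 1 →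
      ∑ χ ∈ B, s χ * v χ b * v χ d / deg χ = ∑ χ ∈ B, v χ d * s χ := by
    intro b hb hb1 d hd' hd1
    have h := hQid b hb hb1 d hd' hd1
    simp only [hs, hv _ b hb, hv _ d hd', hd] at h
    exact_mod_cast h
  have htriv : Char.trivialIrr G ∈ B := (hB _).2 (by
    rw [Brauer.principalBlock_eq_blockOf_trivial]; exact Block.mem_blockOf_self _)
  have hvtriv : ∀ x, v (Char.trivialIrr G) x = 1 := fun x => by
    simp only [hvdef]; exact Complex.one_re
  have hdtriv : deg (Char.trivialIrr G) = 1 := hvtriv 1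
  have hnontriv : ∀ χ : IrrCharacter G, (∀ x ∈ H, v χ x = deg χ) → χ = Char.trivialIrr G := fun χ h =>
    trivial_of_forall hgen χ fun x hx => by rw [hv χ x hx, hd, h x hx]
  have hclass : ∀ χ : IrrCharacter G, ∀ x ∈ orb H a, v χ x = v χ a := fun χ x hx => by
    obtain ⟨n, -, rfl⟩ := mem_orb.1 hx
    simp only [hvdef, Char.irr_isClassFunction χ.2 a n]
  by_cases hk : ∃ d ∈ H, d ≠ 1 ∧ d ∉ orb H a
  · obtain ⟨d, hdH, hd1, hdo⟩ := hk
    -- the values are constant where the sum over `H` does not vanish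
    have hconst : ∀ χ ∈ B, s χ ≠ 0 → ∀ x ∈ H, x ≠ 1 → v χ x = v χ a := by
      intro χ hχ hne x hx hx1
      have h1 := hQr a ha ha1 a ha ha1
      have h2 := hQr x hx hx1 x hx hx1
      have h3 := hQr a ha ha1 x hx hx1
      have h4 := hQr x hx hx1 a ha ha1
      have h5 : ∑ χ ∈ B, s χ * v χ a * v χ x / deg χ = ∑ χ ∈ B, s χ * v χ x * v χ a / deg χ :=
        Finset.sum_congr rfl fun χ _ => by ring
      have h6 : ∑ χ ∈ B, s χ * (v χ x - v χ a) ^ 2 / deg χ = 0 := by
        rw [Finset.sum_congr rfl (g := fun χ => s χ * v χ x * v χ x / deg χ + s χ * v χ a * v χ a / deg χ -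
          (s χ * v χ a * v χ x / deg χ + s χ * v χ x * v χ a / deg χ)) (fun χ _ => by ring),
          Finset.sum_sub_distrib, Finset.sum_add_distrib, Finset.sum_add_distrib, h1, h2, h3, h4]
        ring
      have h7 := (Finset.sum_eq_zero_iff_of_nonneg fun χ _ =>
        div_nonneg (mul_nonneg (hs0 χ) (sq_nonneg _)) (hdpos χ).le).1 h6 χ hχ
      rcases div_eq_zero_iff.1 h7 with h | h
      · rcases mul_eq_zero.1 h with h | h
        · exact absurd h hne
        · exact sub_eq_zero.1 (pow_eq_zero_iff two_ne_zero |>.1 h)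
      · exact absurd h (hdpos χ).ne'
    have hzero : ∀ χ ∈ B, χ ≠ Char.trivialIrr G → s χ = 0 ∨ v χ a = 0 := by
      intro χ hχ hne
      by_contra hcon
      push Not at hcon
      obtain ⟨hsne, hane⟩ := hcon
      have h := hmul χ a d
      have e : ∀ g : G, (χ : G → ℂ) (d * (g * a * g⁻¹)) = (v χ a : ℂ) := fun g => by
        have hdc : d ≠ f g := fun e => hdo (e ▸ hforb g)
        have hne1 : d * f g ≠ 1 := fun e => hdc ((mul_eq_one_iff_eq_inv.1 e).trans
          (inv_eq_of_mul_eq_one_right (hel _ (hf g).1)))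
        rw [value_mul hH hel hcm hQ hZ hloc hM ((hB χ).1 hχ) ha ha1 (hf g) hdH hdc,
          hv χ _ (H.mul_mem hdH (hf g).1), hconst χ hχ hsne _ (H.mul_mem hdH (hf g).1) hne1]
      rw [Finset.sum_congr rfl (fun g _ => e g), Finset.sum_const, Finset.card_univ, nsmul_eq_mul,
        ← Nat.card_eq_fintype_card, hv χ a ha, hv χ d hdH, hconst χ hχ hsne d hdH hd1, hd, mul_assoc,
        mul_div_assoc] at h
      have h' : (v χ a : ℝ) = v χ a * v χ a / deg χ := by exact_mod_cast mul_left_cancel₀ hG h
      rw [eq_div_iff (hdpos χ).ne'] at h'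
      refine hne (hnontriv χ fun x hx => ?_)
      by_cases hx1 : x = 1
      · subst hx1; rfl
      · rw [hconst χ hχ hsne x hx hx1]
        exact (mul_left_cancel₀ hane h').symm
    have hP : ∑ χ ∈ B, v χ a * s χ = Nat.card H := by
      rw [← hQr a ha ha1 a ha ha1, Finset.sum_eq_single_of_mem _ htriv]
      · simp [hsdef, hvtriv, hdtriv, Nat.card_eq_fintype_card]
      · intro χ hχ hne
        rcases hzero χ hχ hne with h | h <;> simp [h]
    set D := ∑ χ ∈ B, v χ a * v χ a with hD
    have hrD : ∑ χ ∈ B, v χ a * s χ = (orb H a).card * D := by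
      simp only [hsdef, Finset.mul_sum]
      rw [Finset.sum_comm]
      have hx0 : ∀ x : H, (∑ χ ∈ B, v χ a * v χ x) = if (x : G) ∈ orb H a then D else 0 := by
        intro x
        split_ifs with hx
        · exact Finset.sum_congr rfl fun χ _ => by rw [hclass χ _ hx]
        · have e : ∑ χ ∈ B, (χ : G → ℂ) a * (χ : G → ℂ) x = 0 := by
            by_cases hx1 : (x : G) = 1
            · rw [hx1, ← horth1 (hel a ha) ha1]
              exact Finset.sum_congr rfl fun χ _ => mul_comm _ _
            apply mul_left_cancel₀ hG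
            rw [mul_zero, Finset.mul_sum]
            calc ∑ χ ∈ B, (Nat.card G : ℂ) * ((χ : G → ℂ) a * (χ : G → ℂ) x)
                = ∑ χ ∈ B, (χ : G → ℂ) 1 * ∑ g : G, (χ : G → ℂ) (x * f g) := by
                  refine Finset.sum_congr rfl fun χ hχ => ?_
                  rw [← Finset.sum_congr rfl (fun g _ => value_mul hH hel hcm hQ hZ hloc hM ((hB χ).1 hχ) ha ha1
                    (hf g) x.2 (fun e => hx (e ▸ hforb g))), hmul χ a x]
                  field_simp [Char.irr_one_ne_zero χ.2]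
              _ = 0 := by
                  simp only [Finset.mul_sum]
                  rw [Finset.sum_comm]
                  refine Finset.sum_eq_zero fun g _ => horth1 (hel _ (H.mul_mem x.2 (hf g).1)) fun e => hx ?_
                  rw [(mul_eq_one_iff_eq_inv.1 e).trans (inv_eq_of_mul_eq_one_right (hel _ (hf g).1))]
                  exact hforb g
          simp only [hv _ a ha, hv _ _ x.2] at e
          exact_mod_cast e
      rw [Finset.sum_congr rfl (fun x _ => hx0 x), Finset.sum_ite, Finset.sum_const_zero, add_zero,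
        Finset.sum_const, nsmul_eq_mul]
      congr 2
      rw [← Finset.card_map (f := ⟨Subtype.val, Subtype.val_injective⟩)]
      congr 1
      ext y
      simp only [Finset.mem_map, Finset.mem_filter, Finset.mem_univ, true_and, Function.Embedding.coeFn_mk]
      exact ⟨by rintro ⟨x, hx, rfl⟩; exact hx, fun hy => ⟨⟨y, orb_le ha hy⟩, hy, rfl⟩⟩
    obtain ⟨D', hD'⟩ : ∃ z : ℤ, D = z := by
      have : ∀ χ : IrrCharacter G, ∃ z : ℤ, v χ a = z := fun χ => by
        obtain ⟨z, hz⟩ := exists_int_value χ.2 (hel a ha)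
        exact ⟨z, by simp only [hvdef, hz, Complex.intCast_re]⟩
      choose z hz using this
      exact ⟨∑ χ ∈ B, z χ * z χ, by rw [hD]; push_cast; simp only [hz]⟩
    rw [hrD, hD'] at hP
    have hdvd : (orb H a).card ∣ Nat.card H := by
      have : ((orb H a).card : ℤ) * D' = (Nat.card H : ℤ) := by exact_mod_cast hP
      exact Int.natCast_dvd_natCast.1 ⟨D', this.symm⟩
    obtain ⟨m, hm⟩ := IsPGroup.iff_card.1 hH
    rw [hm] at hdvd
    exact Nat.eq_one_of_dvd_coprimes (Nat.Coprime.pow_right m (Nat.coprime_two_right.2 hodd)) dvd_rfl hdvd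
  · push Not at hk
    by_contra hne1
    set r := (orb H a).card with hr
    have hr3 : 3 ≤ r := by obtain ⟨j, hj⟩ := hodd; omega
    have hr3' : (3 : ℝ) ≤ r := by exact_mod_cast hr3
    have hval : ∀ χ : IrrCharacter G, ∀ x ∈ H, x ≠ 1 → v χ x = v χ a := fun χ x hx hx1 => hclass χ x (hk x hx hx1)
    have hsval : ∀ χ, s χ = deg χ + r * v χ a := by
      intro χ
      simp only [hsdef]
      rw [← Finset.add_sum_erase Finset.univ _ (Finset.mem_univ (1 : H)),
        Finset.sum_congr rfl (g := fun _ : H => v χ a) fun (x : H) hx => hval χ x x.2 fun e =>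
          (Finset.mem_erase.1 hx).1 (Subtype.ext e), Finset.sum_const, nsmul_eq_mul]
      congr 3
      rw [hr, ← Finset.card_map (f := ⟨Subtype.val, Subtype.val_injective⟩)]
      congr 1
      ext y
      simp only [Finset.mem_map, Finset.mem_erase, Finset.mem_univ, and_true, Function.Embedding.coeFn_mk]
      constructor
      · rintro ⟨x, hx, rfl⟩
        exact hk x x.2 fun e => hx (Subtype.ext e)
      · intro hy
        refine ⟨⟨y, orb_le ha hy⟩, fun e => ha1 ?_, rfl⟩
        obtain ⟨n, -, hn⟩ := mem_orb.1 hy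
        have e' : y = 1 := congrArg Subtype.val e
        rw [e', mul_inv_eq_one, mul_eq_left] at hn
        exact hn
    -- bound on the values
    have hfib : r * (Finset.univ.filter fun g : G => f g = a).card = Nat.card G := by
      rw [Nat.card_eq_fintype_card, ← Finset.card_univ,
        Finset.card_eq_sum_card_fiberwise (s := Finset.univ) (f := f) (t := orb H a) fun g _ => hforb g,
        Finset.sum_congr rfl (g := fun _ => (Finset.univ.filter fun g : G => f g = a).card) ?_,
        Finset.sum_const, smul_eq_mul, hr]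
      intro y hy
      obtain ⟨n, hn, rfl⟩ := mem_orb.1 hy
      refine (Finset.card_equiv (Equiv.mulLeft n) fun g => ?_).symm
      simp only [Finset.mem_filter, Finset.mem_univ, true_and, Equiv.coe_mulLeft]
      rw [← img_unique hH hQ ha ((hf g).conj hn) (hf (n * g))]
      exact ⟨fun e => by rw [e], fun e => mul_left_cancel (mul_right_cancel e)⟩
    have hbound : ∀ χ ∈ B, χ ≠ Char.trivialIrr G → (r : ℝ) * v χ a ≤ deg χ := by
      intro χ hχ hne
      have hlt : v χ a < deg χ := by
        refine lt_of_le_of_ne ?_ fun e => hne (hnontriv χ fun x hx => ?_)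
        · obtain ⟨n, hn⟩ := Char.isCharacter_one_nat (Char.isCharacter_of_irr χ.2)
          have := (Complex.re_le_norm _).trans (Char.isCharacter_norm_le (Char.isCharacter_of_irr χ.2) a)
          simp only [hvdef, hdeg] at this ⊢
          linarith
        · by_cases hx1 : x = 1
          · subst hx1; rfl
          · rw [hval χ x hx hx1, e]
      have h := congrArg Complex.re (hmul χ a a)
      rw [Complex.re_sum, hv χ a ha, hd] at h
      have hle : ∀ g : G, v χ a + (if f g = a then v χ a - deg χ else 0) ≤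
          ((χ : G → ℂ) (a * (g * a * g⁻¹))).re := by
        intro g
        split_ifs with hg
        · have h := value_mul_ge χ (hel a ha) (b := g * a * g⁻¹)
            (by rw [show g * a * g⁻¹ * (g * a * g⁻¹) = g * (a * a) * g⁻¹ by group, hel a ha]; group)
          rw [Char.irr_isClassFunction χ.2 a g] at h
          simp only [hvdef, hdeg]
          linarith
        · have hac : a * f g ≠ 1 := fun e => hg ((inv_eq_of_mul_eq_one_right e).symm.trans
            (inv_eq_of_mul_eq_one_right (hel a ha)))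
          rw [value_mul hH hel hcm hQ hZ hloc hM ((hB χ).1 hχ) ha ha1 (hf g) ha (fun e => hg e.symm),
            hv χ _ (H.mul_mem ha (hf g).1), hval χ _ (H.mul_mem ha (hf g).1) hac, Complex.ofReal_re, add_zero]
      have hsum := Finset.sum_le_sum (s := Finset.univ) fun g _ => hle g
      rw [h, Finset.sum_add_distrib, Finset.sum_const, Finset.card_univ, nsmul_eq_mul, ← Nat.card_eq_fintype_card,
        Finset.sum_ite, Finset.sum_const_zero, add_zero, Finset.sum_const, nsmul_eq_mul] at hsum
      set F := (Finset.univ.filter fun g : G => f g = a).card with hF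
      have hGF : (Nat.card G : ℝ) = r * F := by exact_mod_cast hfib.symm
      have hF0 : (0 : ℝ) < F := by
        have : 0 < r * F := hfib ▸ Nat.card_pos
        exact_mod_cast Nat.pos_of_mul_pos_left this
      rw [show ((Nat.card G : ℂ) * (v χ a : ℂ) * (v χ a : ℂ) / (deg χ : ℂ)) =
        (((Nat.card G : ℝ) * v χ a * v χ a / deg χ : ℝ) : ℂ) by push_cast; rfl, Complex.ofReal_re, hGF,
        le_div_iff₀ (hdpos χ)] at hsum
      have h2 : 0 ≤ ((r : ℝ) * v χ a - deg χ) * (v χ a - deg χ) := by nlinarith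
      nlinarith
    have hQa := hQr a ha ha1 a ha ha1
    have h0 : ∑ χ ∈ B, deg χ * v χ a = 0 := by
      have h := horth1 (hel a ha) ha1
      simp only [hv _ a ha, hd] at h
      exact_mod_cast h
    have hkey : ∑ χ ∈ B, v χ a ^ 2 * (r - 1 - r * v χ a / deg χ) = 0 := by
      have e : ∀ χ ∈ B, v χ a ^ 2 * (r - 1 - r * v χ a / deg χ) =
          v χ a * s χ - s χ * v χ a * v χ a / deg χ - deg χ * v χ a := fun χ _ => by
        rw [hsval]; field_simp [(hdpos χ).ne']; ring
      rw [Finset.sum_congr rfl e, Finset.sum_sub_distrib, Finset.sum_sub_distrib, hQa, h0]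
      ring
    rw [← Finset.add_sum_erase B _ htriv, hvtriv, hdtriv] at hkey
    rw [← Finset.add_sum_erase B _ htriv, hvtriv, hdtriv] at h0
    obtain ⟨χ₀, hχ₀, hneg⟩ : ∃ χ ∈ B.erase (Char.trivialIrr G), v χ a < 0 := by
      by_contra hcon
      push Not at hcon
      have := Finset.sum_nonneg fun χ hχ => mul_nonneg (hdpos χ).le (hcon χ hχ)
      linarith
    have hnn : ∀ χ ∈ B.erase (Char.trivialIrr G), 0 ≤ v χ a ^ 2 * (r - 1 - r * v χ a / deg χ) := by
      intro χ hχ
      have h := hbound χ (Finset.mem_of_mem_erase hχ) (Finset.ne_of_mem_erase hχ)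
      have h' : (r : ℝ) * v χ a / deg χ ≤ 1 := (div_le_one (hdpos χ)).2 h
      exact mul_nonneg (sq_nonneg _) (by linarith)
    have h1 := Finset.single_le_sum hnn hχ₀
    have hsq : 1 ≤ v χ₀ a ^ 2 := by
      obtain ⟨z, hz⟩ := exists_int_value χ₀.2 (hel a ha)
      have hvz : v χ₀ a = z := by simp only [hvdef, hz, Complex.intCast_re]
      rw [hvz] at hneg ⊢
      have hz' : z ≤ -1 := by
        have : z < 0 := by exact_mod_cast hneg
        omega
      have : (z : ℝ) ≤ -1 := by exact_mod_cast hz'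
      nlinarith
    have h2 : (r : ℝ) * v χ₀ a / deg χ₀ ≤ 0 :=
      div_nonpos_of_nonpos_of_nonneg (mul_nonpos_of_nonneg_of_nonpos (Nat.cast_nonneg r) hneg.le) (hdpos χ₀).le
    have h3 : 2 ≤ v χ₀ a ^ 2 * (r - 1 - r * v χ₀ a / deg χ₀) := by nlinarith
    norm_num at hkey
    linarith

end Cfsg.Agent.LAE62.ExtClosed
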