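import Cfsg.Agent.LAE62.ExtClosed.Basic
import Cfsg.Agent.Invol.RankOneQuot

/-!
The image in `H` of a conjugate of an element of `H`, and the orbit of an element under the normalizer.
-/

set_option autoImplicit false

open Subgroup

namespace Cfsg.Agent.LAE62.ExtClosed

variable {G : Type*} [Group G] [Finite G] {H : Subgroup G}

/-- `c` is the element of `H` congruent to the conjugate of `a` by `g`. -/
def IsImg (H : Subgroup G) (a g c : G) : Prop := c ∈ H ∧ Odd (orderOf (g * a * g⁻¹ * c))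

theorem exists_img (hH : IsPGroup 2 H) (hel : ∀ x ∈ H, x * x = 1) (hQ : OddClosed H) {a : G} (ha : a ∈ H) (g : G) :
    ∃ c, IsImg H a g c ∧ ∃ n ∈ normalizer (H : Set G), n * a * n⁻¹ = c := by
  obtain ⟨K, hK, hn, k, hk, hkg⟩ := exists_decomp hH hQ g
  set c := k⁻¹ * g * a * (k⁻¹ * g)⁻¹ with hc
  have hcH : c ∈ H := (mem_normalizer_iff.1 hkg a).1 ha
  refine ⟨c, ⟨hcH, odd_order_of_mem hK ?_⟩, k⁻¹ * g, hkg, rfl⟩
  have hci : c⁻¹ = c := inv_eq_of_mul_eq_one_right (hel c hcH)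
  rw [show g * a * g⁻¹ * c = k * (c * k⁻¹ * c) by rw [hc]; group]
  refine K.mul_mem hk ?_
  have h := (mem_normalizer_iff.1 (hn hcH) k⁻¹).1 (K.inv_mem hk)
  rwa [hci] at h

theorem img_unique (hH : IsPGroup 2 H) (hQ : OddClosed H) {a g c c' : G} (ha : a ∈ H) (h : IsImg H a g c)
    (h' : IsImg H a g c') : c = c' := by
  obtain ⟨K, hK, hn, hg⟩ := hQ g
  have m1 := mem_of_odd hn hH ((K ⊔ H).mul_mem (hg a ha) (mem_sup_right h.1)) h.2
  have m2 := mem_of_odd hn hH ((K ⊔ H).mul_mem (hg a ha) (mem_sup_right h'.1)) h'.2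
  have m3 : c⁻¹ * c' ∈ K := by
    rw [show c⁻¹ * c' = (g * a * g⁻¹ * c)⁻¹ * (g * a * g⁻¹ * c') by group]
    exact K.mul_mem (K.inv_mem m1) m2
  obtain ⟨n, hn'⟩ := hH ⟨c⁻¹ * c', H.mul_mem (H.inv_mem h.1) h'.1⟩
  exact inv_mul_eq_one.1 (eq_one_of_pow_two hK m3 (n := n) (by simpa using congrArg Subtype.val hn'))

theorem IsImg.conj {a g c m : G} (h : IsImg H a g c) (hm : m ∈ normalizer (H : Set G)) :
    IsImg H a (m * g) (m * c * m⁻¹) := by
  refine ⟨(mem_normalizer_iff.1 hm c).1 h.1, ?_⟩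
  rw [show m * g * a * (m * g)⁻¹ * (m * c * m⁻¹) = m * (g * a * g⁻¹ * c) * m⁻¹ by group, Invol.orderOf_conj]
  exact h.2

/-- The orbit of an element under the normalizer. -/
noncomputable def orb (H : Subgroup G) (a : G) : Finset G :=
  (Set.toFinite {x : G | ∃ n ∈ normalizer (H : Set G), n * a * n⁻¹ = x}).toFinset

theorem mem_orb {a x : G} : x ∈ orb H a ↔ ∃ n ∈ normalizer (H : Set G), n * a * n⁻¹ = x := Set.Finite.mem_toFinset _

theorem orb_le {a x : G} (ha : a ∈ H) (hx : x ∈ orb H a) : x ∈ H := by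
  obtain ⟨n, hn, rfl⟩ := mem_orb.1 hx
  exact (mem_normalizer_iff.1 hn a).1 ha

theorem self_mem_orb {a : G} : a ∈ orb H a := mem_orb.2 ⟨1, one_mem _, by group⟩

/-- The orbit has size the index of the stabilizer. -/
theorem card_orb_eq (H : Subgroup G) (a : G) :
    (orb H a).card = (centralizer ({a} : Set G)).relIndex (normalizer (H : Set G)) := by
  set N := normalizer (H : Set G) with hN
  rw [Subgroup.relIndex, Subgroup.index_eq_card, ← Nat.card_eq_finsetCard]
  refine (Nat.card_congr (Equiv.ofBijective (fun q => Quotient.liftOn' q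
    (fun n : N => (⟨n * a * (n : G)⁻¹, mem_orb.2 ⟨n, n.2, rfl⟩⟩ : orb H a)) ?_) ⟨?_, ?_⟩)).symm
  · intro n m h
    rw [QuotientGroup.leftRel_apply, mem_subgroupOf, mem_centralizer_singleton_iff] at h
    refine Subtype.ext ?_
    show (n : G) * a * (n : G)⁻¹ = (m : G) * a * (m : G)⁻¹
    have h' : (n : G)⁻¹ * m * a = a * ((n : G)⁻¹ * m) := h
    calc (n : G) * a * (n : G)⁻¹ = (n : G) * (a * ((n : G)⁻¹ * m)) * (m : G)⁻¹ := by group
      _ = (n : G) * ((n : G)⁻¹ * m * a) * (m : G)⁻¹ := by rw [h']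
      _ = _ := by group
  · intro q₁ q₂
    induction q₁ using Quotient.inductionOn' with | _ n =>
    induction q₂ using Quotient.inductionOn' with | _ m =>
    intro h
    have h' : (n : G) * a * (n : G)⁻¹ = (m : G) * a * (m : G)⁻¹ := congrArg Subtype.val h
    refine Quotient.sound' ?_
    rw [QuotientGroup.leftRel_apply, mem_subgroupOf, mem_centralizer_singleton_iff]
    show (n : G)⁻¹ * m * a = a * ((n : G)⁻¹ * m)
    calc (n : G)⁻¹ * m * a = (n : G)⁻¹ * ((m : G) * a * (m : G)⁻¹) * m := by group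
      _ = (n : G)⁻¹ * ((n : G) * a * (n : G)⁻¹) * m := by rw [h']
      _ = _ := by group
  · rintro ⟨x, hx⟩
    obtain ⟨n, hn, rfl⟩ := mem_orb.1 hx
    exact ⟨Quotient.mk'' ⟨n, hn⟩, rfl⟩

theorem odd_card_orb (P : Sylow 2 G) (hPN : (P : Subgroup G) ≤ normalizer (H : Set G)) {a : G}
    (hPa : (P : Subgroup G) ≤ centralizer ({a} : Set G)) : Odd (orb H a).card := by
  haveI : Fact (Nat.Prime 2) := ⟨Nat.prime_two⟩
  rw [card_orb_eq, Nat.odd_iff]
  have h1 : ¬ 2 ∣ (P : Subgroup G).index := P.not_dvd_index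
  have h2 : (centralizer ({a} : Set G) ⊓ normalizer (H : Set G)).relIndex (normalizer (H : Set G)) =
      (centralizer ({a} : Set G)).relIndex (normalizer (H : Set G)) := inf_relIndex_right _ _
  have h3 := relIndex_dvd_index_of_le (H := (P : Subgroup G))
    (K := centralizer ({a} : Set G) ⊓ normalizer (H : Set G)) (le_inf hPa hPN)
  have h4 := relIndex_mul_relIndex (P : Subgroup G) (centralizer ({a} : Set G) ⊓ normalizer (H : Set G))
    (normalizer (H : Set G)) (le_inf hPa hPN) inf_le_right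
  have h5 : (centralizer ({a} : Set G) ⊓ normalizer (H : Set G)).relIndex (normalizer (H : Set G)) ∣
      (P : Subgroup G).index :=
    (dvd_mul_left _ _).trans (h4 ▸ relIndex_dvd_index_of_le hPN)
  rw [h2] at h5
  exact Nat.two_dvd_ne_zero.1 fun h => h1 (h.trans h5)

end Cfsg.Agent.LAE62.ExtClosed
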