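import Cfsg.Agent.LAE62.ExtClosed.Core
import Cfsg.Agent.PGroup.Basic

/-!
An abelian odd-closed `2`-subgroup is normal modulo the odd core.
-/

set_option autoImplicit false

open Subgroup

namespace Cfsg.Agent.LAE62.ExtClosed

open Cfsg

universe u

variable {G : Type u} [Group G] [Finite G]

theorem normalizer_map_sup (H : Subgroup G) (g : G) (hH : IsPGroup 2 H)
    (hg : ∀ x ∈ H, g * x * g⁻¹ ∈ normalizer (H : Set G)) :
    IsPGroup 2 (H ⊔ H.map (MulAut.conj g).toMonoidHom : Subgroup G) := by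
  haveI : Fact (Nat.Prime 2) := ⟨Nat.prime_two⟩
  refine IsPGroup.to_sup_of_normal_left' hH (hH.map _) ?_
  rintro _ ⟨x, hx, rfl⟩
  exact hg x hx

/-- An odd-closed abelian `2`-subgroup. -/
def Factor (G : Type u) [Group G] : Prop :=
  ∀ H : Subgroup G, IsPGroup 2 H → (∀ x ∈ H, ∀ y ∈ H, x * y = y * x) → OddClosed H →
    normalizer (H : Set G) ⊔ pPrimeCore 2 G = ⊤

theorem local_of_factor {H : Subgroup G} (hH : IsPGroup 2 H) (hel : ∀ x ∈ H, x * x = 1)
    (hcm : ∀ x ∈ H, ∀ y ∈ H, x * y = y * x) (hQ : OddClosed H)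
    (ih : ∀ C : Subgroup G, C ≠ ⊤ → Factor C) : Local H := by
  intro z hz hzc k₁ k₂ hk₁ hk₂ x y hx hy
  haveI : Fact (Nat.Prime 2) := ⟨Nat.prime_two⟩
  set C := centralizer ({z} : Set G) with hCdef
  have hC : C ≠ ⊤ := fun e => hzc (Invol.centralizer_singleton_eq_top_iff.1 e)
  set H₁ := H.map (MulAut.conj k₁).toMonoidHom with hH₁def
  have hH₁p : IsPGroup 2 H₁ := hH.map _
  have hH₁Q : OddClosed H₁ := hQ.map _ (MulAut.conj k₁).surjective
  have hH₁C : H₁ ≤ C := by
    rintro _ ⟨h, hh, rfl⟩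
    exact Invol.mem_centralizer_singleton.2 (hk₁ h hh)
  have hH₁el : ∀ u ∈ H₁, u * u = 1 := by
    rintro _ ⟨h, hh, rfl⟩
    rw [← map_mul, hel h hh, map_one]
  have hH₁cm : ∀ u ∈ H₁, ∀ w ∈ H₁, u * w = w * u := by
    rintro _ ⟨h, hh, rfl⟩ _ ⟨h', hh', rfl⟩
    rw [← map_mul, ← map_mul, hcm h hh h' hh']
  have hxH : x ∈ H₁ := ⟨_, hx, by simp [MulAut.conj_apply, mul_assoc]⟩
  have hyC : y ∈ C := Invol.mem_centralizer_singleton.2 (by
    have h := hk₂ _ hy
    rwa [show k₂ * (k₂⁻¹ * y * k₂) * k₂⁻¹ = y by group] at h)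
  have hfac := ih C hC (H₁.subgroupOf C) (hH₁p.of_equiv (subgroupOfEquivOfLe hH₁C).symm)
    (fun a ha b hb => Subtype.ext (hH₁cm a ha b hb)) (hH₁Q.subgroup hH₁C)
  obtain ⟨K, hK, hKn, hKg⟩ := hH₁Q (k₂ * k₁⁻¹)
  set H₂ := H.map (MulAut.conj k₂).toMonoidHom with hH₂def
  have hH₂C : H₂ ≤ C := by
    rintro _ ⟨h, hh, rfl⟩
    exact Invol.mem_centralizer_singleton.2 (hk₂ h hh)
  have hH₂le : H₂.subgroupOf C ≤ K.subgroupOf C ⊔ H₁.subgroupOf C := by
    intro s hs
    obtain ⟨h, hh, hhs⟩ := hs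
    have hmem := hKg _ (⟨h, hh, rfl⟩ : (MulAut.conj k₁).toMonoidHom h ∈ H₁)
    have e : k₂ * k₁⁻¹ * (MulAut.conj k₁).toMonoidHom h * (k₂ * k₁⁻¹)⁻¹ = (s : G) := by
      rw [show (s : G) = C.subtype s from rfl, ← hhs]
      show k₂ * k₁⁻¹ * (k₁ * h * k₁⁻¹) * (k₂ * k₁⁻¹)⁻¹ = k₂ * h * k₂⁻¹
      group
    rw [e] at hmem
    obtain ⟨k, hk, u, hu, hku⟩ := exists_mul hKn hmem
    have hkC : k ∈ C := by
      rw [show k = (s : G) * u⁻¹ by rw [← hku, mul_inv_cancel_right]]
      exact C.mul_mem s.2 (C.inv_mem (hH₁C hu))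
    rw [show s = ⟨k, hkC⟩ * ⟨u, hH₁C hu⟩ from Subtype.ext hku.symm]
    exact mul_mem (mem_sup_left (show (⟨k, hkC⟩ : C) ∈ K.subgroupOf C from hk))
      (mem_sup_right (show (⟨u, hH₁C hu⟩ : C) ∈ H₁.subgroupOf C from hu))
  obtain ⟨c, -, hcs⟩ := exists_conj_mem (hH₁p.of_equiv (subgroupOfEquivOfLe hH₁C).symm)
    (K := K.subgroupOf C) (hK.of_dvd_nat (by
      rw [← card_map_of_injective C.subtype_injective, subgroupOf_map_subtype]
      exact card_dvd_of_le inf_le_left))
    (fun u hu => by rw [mem_normalizer_iff]; exact fun w => mem_normalizer_iff.1 (hKn hu) w)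
    ((hH.map _).of_equiv (subgroupOfEquivOfLe hH₂C).symm) hH₂le
  have hyc := hcs ⟨y, hyC⟩ (show (⟨y, hyC⟩ : C) ∈ H₂.subgroupOf C from
    ⟨_, hy, by simp [MulAut.conj_apply, mul_assoc]⟩)
  set O := pPrimeCore 2 C with hO
  have hcmem : c ∈ normalizer ((H₁.subgroupOf C : Subgroup C) : Set C) ⊔ O := hfac ▸ mem_top c
  rw [← SetLike.mem_coe, Subgroup.mul_normal] at hcmem
  obtain ⟨n, hn, o, ho, hno⟩ := hcmem
  change n * o = c at hno
  set u := c⁻¹ * ⟨y, hyC⟩ * c with hudef
  set X : C := ⟨x, hH₁C hxH⟩ with hX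
  set u' := n * u * n⁻¹ with hu'def
  have hu' : u' ∈ H₁.subgroupOf C := (mem_normalizer_iff.1 hn u).1 hyc
  obtain ⟨o', ho', hy'⟩ : ∃ o' ∈ O, (⟨y, hyC⟩ : C) = o' * u' := by
    refine ⟨n * (o * (u * o⁻¹ * u⁻¹)) * n⁻¹,
      Subgroup.Normal.conj_mem inferInstance _ (mul_mem ho (Subgroup.Normal.conj_mem inferInstance _ (inv_mem ho) u)) n, ?_⟩
    rw [hu'def, hudef, ← hno]; group
  have hX2 : X * X = 1 := Subtype.ext (hH₁el x hxH)
  have hu2 : u' * u' = 1 := Subtype.ext (hH₁el u' hu')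
  have hXu : X * u' = u' * X := Subtype.ext (hH₁cm x hxH u' hu')
  refine ⟨(X * ⟨y, hyC⟩) ^ 2, ?_, rfl⟩
  rw [hy', pow_two, show X * (o' * u') * (X * (o' * u')) = (X * o' * X⁻¹) * (X * u' * X) * o' * u' by group,
    hXu, mul_assoc u' X X, hX2, mul_one, mul_assoc (X * o' * X⁻¹) u' o',
    mul_assoc (X * o' * X⁻¹) (u' * o') u']
  have hui : u'⁻¹ = u' := inv_eq_of_mul_eq_one_right hu2
  refine mul_mem (Subgroup.Normal.conj_mem inferInstance _ ho' X) ?_
  have h := Subgroup.Normal.conj_mem (inferInstance : O.Normal) _ ho' u'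
  rwa [hui] at h

theorem quotient_card_lt {N : Subgroup G} [N.Normal] (hN : N ≠ ⊥) : Nat.card (G ⧸ N) < Nat.card G := by
  rw [← Subgroup.index_eq_card, ← Subgroup.index_mul_card N]
  exact lt_mul_of_one_lt_right (Nat.pos_of_ne_zero Subgroup.index_ne_zero_of_finite)
    ((Subgroup.one_lt_card_iff_ne_bot _).2 hN)

theorem normal_of_quotient {N H : Subgroup G} [N.Normal] (hH : IsPGroup 2 H)
    (hcm : ∀ x ∈ H, ∀ y ∈ H, x * y = y * x) (hQ : OddClosed H) (hfac : Factor (G ⧸ N))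
    (hbot : pPrimeCore 2 (G ⧸ N) = ⊥) : (H ⊔ N).Normal := by
  have h := hfac (H.map (QuotientGroup.mk' N)) (hH.map _) ?_ (hQ.map _ (QuotientGroup.mk'_surjective N))
  · rw [hbot, sup_bot_eq, normalizer_eq_top_iff] at h
    have := h.comap (QuotientGroup.mk' N)
    rwa [comap_map_eq, QuotientGroup.ker_mk'] at this
  · rintro _ ⟨x, hx, rfl⟩ _ ⟨y, hy, rfl⟩
    rw [← map_mul, ← map_mul, hcm x hx y hy]

/-- An odd-closed abelian `2`-subgroup is normal modulo the odd core. -/
theorem factor : ∀ (n : ℕ) (G : Type u) [Group G] [Finite G], Nat.card G = n → Factor G := by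
  intro n
  induction n using Nat.strong_induction_on with
  | _ n ih =>
  intro G _ _ hn
  subst hn
  haveI : Fact (Nat.Prime 2) := ⟨Nat.prime_two⟩
  intro H
  induction hm : Nat.card H using Nat.strong_induction_on generalizing H with
  | _ m ihH =>
  subst hm
  intro hH hcm hQ
  by_cases hO : pPrimeCore 2 G = ⊥
  swap
  · set O := pPrimeCore 2 G with hOdef
    have hn' := normal_of_quotient hH hcm hQ (ih _ (quotient_card_lt hO) (G ⧸ O) rfl)
      Cores.pPrimeCore_quotient_pPrimeCore_eq_bot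
    refine eq_top_iff.2 fun g _ => ?_
    have hOdd : Odd (Nat.card O) := Nat.odd_iff.2 (Nat.two_dvd_ne_zero.1 Cores.not_dvd_card_pPrimeCore)
    obtain ⟨k, hk, hks⟩ := exists_conj_mem hH hOdd le_normalizer_of_normal
      (isPGroup_map_conj hH g) (S := H.map (MulAut.conj g).toMonoidHom) (by
        rintro _ ⟨x, hx, rfl⟩
        have := hn'.conj_mem x (mem_sup_left hx) g
        rwa [sup_comm] at this)
    have hnm : k⁻¹ * g ∈ normalizer (H : Set G) := mem_normalizer_of_conj_mem fun x hx => by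
      have h := hks _ ⟨x, hx, rfl⟩
      convert h using 1
      show _ = k⁻¹ * (g * x * g⁻¹) * k
      group
    rw [show g = k * (k⁻¹ * g) by group]
    exact mul_mem (mem_sup_right hk) (mem_sup_left hnm)
  rw [hO, sup_bot_eq]
  by_cases hL : normalClosure (H : Set G) ≠ ⊤
  · set L := normalClosure (H : Set G) with hLdef
    have hHL : H ≤ L := le_normalClosure
    have hlt : Nat.card L < Nat.card G :=
      lt_of_le_of_ne (Subgroup.card_le_card_group _) fun e => hL (Subgroup.eq_top_of_card_eq _ e)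
    have h := ih _ hlt L rfl (H.subgroupOf L) (hH.of_equiv (subgroupOfEquivOfLe hHL).symm)
      (fun a ha b hb => Subtype.ext (hcm a ha b hb)) (hQ.subgroup hHL)
    haveI : L.Normal := normalClosure_normal
    have hcore : pPrimeCore 2 L = ⊥ := by
      have := Cores.map_subtype_pPrimeCore_eq (p := 2) (N := L)
      rw [hO, inf_bot_eq] at this
      exact (Subgroup.map_eq_bot_iff_of_injective _ L.subtype_injective).1 this
    rw [hcore, sup_bot_eq, normalizer_eq_top_iff] at h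
    refine eq_top_iff.2 fun g _ => ?_
    have hg : ∀ x ∈ H, g * x * g⁻¹ ∈ normalizer (H : Set G) := fun x hx => by
      have hgx : g * x * g⁻¹ ∈ L := Subgroup.Normal.conj_mem inferInstance x (hHL hx) g
      exact mem_normalizer_of_conj_mem fun y hy =>
        h.conj_mem ⟨y, hHL hy⟩ hy ⟨_, hgx⟩
    exact hQ.conj_eq_of_le hH (normalizer_map_sup H g hH hg) le_sup_left
      fun x hx => mem_sup_right ⟨x, hx, rfl⟩
  push Not at hL
  by_cases hZ : ∀ x ∈ H, x ∈ center G → x = 1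
  swap
  · obtain ⟨x, hx, hxc, hx1⟩ : ∃ x ∈ H, x ∈ center G ∧ x ≠ 1 := by
      push Not at hZ; exact hZ
    have hne : (H ⊓ center G : Subgroup G) ≠ ⊥ := fun e => hx1 (by
      rw [← mem_bot, ← e]; exact ⟨hx, hxc⟩)
    have hdvd : 2 ∣ Nat.card (H ⊓ center G : Subgroup G) := by
      haveI : Nontrivial (H ⊓ center G : Subgroup G) := (nontrivial_iff_ne_bot _).2 hne
      obtain ⟨k, hk⟩ := IsPGroup.iff_card.1 (hH.to_le (inf_le_left : H ⊓ center G ≤ H))
      rw [hk]
      exact dvd_pow_self 2 fun e => by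
        rw [e, pow_zero] at hk
        exact absurd hk (Finite.one_lt_card (α := (H ⊓ center G : Subgroup G))).ne'
    obtain ⟨⟨z, hz⟩, hz2⟩ := exists_prime_orderOf_dvd_card' 2 hdvd
    rw [← Subgroup.orderOf_coe] at hz2
    change orderOf z = 2 at hz2
    set Z := zpowers z with hZdef
    haveI hZn : Z.Normal := ⟨fun a ha c => by
      rw [Subgroup.mem_center_iff.1 (zpowers_le.2 hz.2 ha) c, mul_inv_cancel_right]; exact ha⟩
    have hZb : Z ≠ ⊥ := fun e => Invol.inv_ne_one hz2 (by rw [← mem_bot, ← e]; exact mem_zpowers z)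
    have hbot : pPrimeCore 2 (G ⧸ Z) = ⊥ := by
      set K := (pPrimeCore 2 (G ⧸ Z)).comap (QuotientGroup.mk' Z) with hKdef
      have hzK : z ∈ K := by
        show ((z : G) : G ⧸ Z) ∈ pPrimeCore 2 (G ⧸ Z)
        rw [(QuotientGroup.eq_one_iff z).2 (mem_zpowers z)]
        exact one_mem _
      have h6 : ¬ 2 ∣ Nat.card (pPrimeCore 2 (G ⧸ Z)) := Cores.not_dvd_card_pPrimeCore
      have hidx : Odd (Z.subgroupOf K).index := by
        have h4 : Nat.card K = _ := Cores.card_comap_mk_eq Z (pPrimeCore 2 (G ⧸ Z))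
        have h5 := Subgroup.index_mul_card (Z.subgroupOf K)
        rw [Nat.card_congr (Subgroup.subgroupOfEquivOfLe (zpowers_le.2 hzK)).toEquiv] at h5
        have hZ2 : Nat.card Z = 2 := by rw [hZdef, Nat.card_zpowers, hz2]
        rw [hZ2] at h4 h5
        rw [h4] at h5
        have h7 : (Z.subgroupOf K).index = Nat.card (pPrimeCore 2 (G ⧸ Z)) := by linarith
        rw [h7, Nat.odd_iff]
        omega
      refine eq_bot_iff.2 fun q hq => ?_
      obtain ⟨y, rfl⟩ := QuotientGroup.mk'_surjective Z q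
      set o := Nat.card (pPrimeCore 2 (G ⧸ Z)) with ho
      have hqo : (QuotientGroup.mk' Z y) ^ o = 1 := by
        rw [← orderOf_dvd_iff_pow_eq_one]
        exact Subgroup.orderOf_dvd_natCard _ hq
      have hyo : y ^ o ∈ Z := (QuotientGroup.eq_one_iff _).1 (by simpa using hqo)
      have hy2 : (y ^ 2) ^ o = 1 := by
        rw [← pow_mul, mul_comm, pow_mul]
        obtain ⟨i, hi⟩ := mem_zpowers_iff.1 hyo
        rw [← hi, pow_two, ← (Commute.refl z).mul_zpow, Invol.inv_mul_self hz2, one_zpow]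
      have hodd : Odd o := Nat.odd_iff.2 (Nat.two_dvd_ne_zero.1 h6)
      have hy1 : y ^ 2 = 1 := Invol.commutator_eq_one_of_mem hO hz2 hz.2 hzK hidx
        (K.pow_mem (show y ∈ K from hq) 2) (hodd.of_dvd_nat (orderOf_dvd_of_pow_eq_one hy2))
      rw [mem_bot]
      obtain ⟨j, hj⟩ := hodd
      rw [hj, pow_succ, pow_mul, ← map_pow, hy1, map_one, one_pow, one_mul] at hqo
      exact hqo
    have hn' := normal_of_quotient hH hcm hQ (ih _ (quotient_card_lt hZb) (G ⧸ Z) rfl) hbot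
    rw [sup_eq_left.2 (zpowers_le.2 hz.1)] at hn'
    rw [normalizer_eq_top_iff]
    exact hn'
  by_cases hH1 : H = ⊥
  · subst hH1
    rw [normalizer_eq_top_iff]
    infer_instance
  exfalso
  -- the elements of order at most two
  by_cases hel : ∀ x ∈ H, x * x = 1
  swap
  · let A : Subgroup G :=
      { carrier := {x | x ∈ H ∧ x * x = 1}
        one_mem' := ⟨one_mem H, mul_one 1⟩
        mul_mem' := by
          rintro a b ⟨ha, ha'⟩ ⟨hb, hb'⟩
          exact ⟨H.mul_mem ha hb, by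
            rw [mul_assoc, ← mul_assoc b a b, hcm b hb a ha, mul_assoc a b b, hb', mul_one, ha']⟩
        inv_mem' := by
          rintro a ⟨ha, ha'⟩
          exact ⟨H.inv_mem ha, by rw [← _root_.mul_inv_rev, ha', inv_one]⟩ }
    have hAH : A ≤ H := fun x hx => hx.1
    have hAN : normalizer (H : Set G) ≤ normalizer (A : Set G) := fun g hg =>
      mem_normalizer_of_conj_mem fun x hx => ⟨(mem_normalizer_iff.1 hg x).1 hx.1, by
        rw [show g * x * g⁻¹ * (g * x * g⁻¹) = g * (x * x) * g⁻¹ by group, hx.2, mul_one, mul_inv_cancel]⟩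
    have hlt : Nat.card A < Nat.card H := by
      refine lt_of_le_of_ne (Subgroup.card_le_of_le hAH) fun e => hel fun x hx => ?_
      rw [← Subgroup.eq_of_le_of_card_ge hAH e.ge] at hx
      exact hx.2
    have hA := ihH _ hlt A rfl (hH.to_le hAH) (fun a ha b hb => hcm a (hAH ha) b (hAH hb)) (hQ.invariant hH hAH hAN)
    rw [hO, sup_bot_eq, normalizer_eq_top_iff] at hA
    haveI := hA
    haveI : Nontrivial H := (nontrivial_iff_ne_bot H).2 hH1
    obtain ⟨k, hk⟩ := IsPGroup.iff_card.1 hH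
    have hdvd : 2 ∣ Nat.card H := by
      rw [hk]
      exact dvd_pow_self 2 fun e => by
        rw [e, pow_zero] at hk
        exact absurd hk (Finite.one_lt_card (α := H)).ne'
    obtain ⟨⟨w, hw⟩, hw2⟩ := exists_prime_orderOf_dvd_card' 2 hdvd
    rw [← Subgroup.orderOf_coe] at hw2
    have hwA : w ∈ A := ⟨hw, Invol.inv_mul_self hw2⟩
    have hle : normalClosure (H : Set G) ≤ centralizer (A : Set G) :=
      normalClosure_le_normal fun x hx => mem_centralizer_iff.2 fun a ha => hcm a (hAH ha) x hx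
    rw [hL] at hle
    exact Invol.inv_ne_one hw2 (hZ w hw (Subgroup.mem_center_iff.2 fun g =>
      (mem_centralizer_iff.1 (hle (mem_top g)) w hwA).symm))
  obtain ⟨P, hHP⟩ := hH.exists_le_sylow
  have hPN : (P : Subgroup G) ≤ normalizer (H : Set G) := fun g hg =>
    hQ.conj_eq_of_le hH P.2 hHP fun x hx => mul_mem (mul_mem hg (hHP hx)) (inv_mem hg)
  haveI : (H.subgroupOf (P : Subgroup G)).Normal := normal_subgroupOf_of_le_normalizer hPN
  haveI : Nontrivial (P : Subgroup G) :=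
    (nontrivial_iff_ne_bot _).2 fun e => hH1 (le_bot_iff.1 (hHP.trans e.le))
  have hne : H.subgroupOf (P : Subgroup G) ≠ ⊥ := fun h => hH1 (by
    rw [← map_subgroupOf_eq_of_le hHP, h, Subgroup.map_bot])
  obtain ⟨⟨a, haP⟩, ⟨haH, hac⟩, ha1⟩ :=
    (Subgroup.bot_or_exists_ne_one _).resolve_left (PGroup.inf_center_ne_bot (p := 2) P.2 _ hne)
  have ha : a ∈ H := haH
  have ha1' : a ≠ 1 := fun e => ha1 (Subtype.ext e)
  have hPa : (P : Subgroup G) ≤ centralizer ({a} : Set G) := fun y hy =>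
    mem_centralizer_singleton_iff.2 (congrArg Subtype.val (Subgroup.mem_center_iff.1 hac ⟨y, hy⟩))
  have hloc : Local H := local_of_factor hH hel hcm hQ fun C hC => ih _
    (lt_of_le_of_ne (Subgroup.card_le_card_group _) fun e => hC (Subgroup.eq_top_of_card_eq _ e)) C rfl
  have hone := orbit_card_eq_one hH hel hcm hQ hZ hloc hL ha ha1' (odd_card_orb P hPN hPa)
  obtain ⟨a', ha'⟩ := Finset.card_eq_one.1 hone
  have hiso : Invol.IsIsolatedInv a := by
    refine ⟨Invol.orderOf_eq_two (hel a ha) ha1', fun g hg => ?_⟩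
    obtain ⟨c, hc, hcn⟩ := exists_img hH hel hQ ha g
    have e1 : c = a' := Finset.mem_singleton.1 (ha' ▸ mem_orb.2 hcn)
    have e2 : a = a' := Finset.mem_singleton.1 (ha' ▸ self_mem_orb (H := H) (a := a))
    have hce : c = a := e1.trans e2.symm
    subst hce
    set b := g * c * g⁻¹ with hb
    have hbb : b * b = 1 := by
      rw [hb, show g * c * g⁻¹ * (g * c * g⁻¹) = g * (c * c) * g⁻¹ by group, hel c ha, mul_one, mul_inv_cancel]
    have h2 : (b * c) * (b * c) = 1 := by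
      rw [show b * c * (b * c) = b * (c * b) * c by group, ← hg.eq, show b * (b * c) * c = b * b * (c * c) by group,
        hbb, hel c ha, mul_one]
    by_contra hne
    have hne' : b * c ≠ 1 := fun e => hne (by
      rw [mul_eq_one_iff_eq_inv.1 e, inv_eq_of_mul_eq_one_right (hel c ha)])
    have h3 : Odd (orderOf (b * c)) := hc.2
    rw [Invol.orderOf_eq_two h2 hne'] at h3
    exact absurd h3 (by decide)
  refine ha1' (hZ a ha (Subgroup.mem_center_iff.2 fun g => ?_))
  have := Invol.zStar_theorem G a hiso g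
  rw [hO, mem_bot, commutatorElement_eq_one_iff_mul_comm] at this
  exact this.symm

end Cfsg.Agent.LAE62.ExtClosed
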