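import Cfsg.Agent.LAE62.ExtClosed.Image

/-!
Values of principal block characters at products of elements of `H` with conjugates.
-/

set_option autoImplicit false

open Subgroup

namespace Cfsg.Agent.LAE62.ExtClosed

open Cfsg

universe u

variable {G : Type u} [Group G] [Finite G] {H : Subgroup G}

/-- Commutators of elements from two conjugates of `H` centralizing a noncentral involution lie in its odd core. -/
def Local (H : Subgroup G) : Prop :=
  ∀ z : G, orderOf z = 2 → z ∉ center G → ∀ k₁ k₂ : G,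
    (∀ h ∈ H, Commute (k₁ * h * k₁⁻¹) z) → (∀ h ∈ H, Commute (k₂ * h * k₂⁻¹) z) →
      ∀ x y : G, k₁⁻¹ * x * k₁ ∈ H → k₂⁻¹ * y * k₂ ∈ H → (x * y) ^ 2 ∈ centralizerPPrimeCore 2 z

theorem value_mul (hH : IsPGroup 2 H) (hel : ∀ x ∈ H, x * x = 1) (hcm : ∀ x ∈ H, ∀ y ∈ H, x * y = y * x)
    (hQ : OddClosed H) (hZ : ∀ x ∈ H, x ∈ center G → x = 1) (hloc : Local H)
    {M : Ideal AlgInt} (hM : IsPModular 2 M) {χ : IrrCharacter G} (hχ : χ ∈ principalBlock M G)
    {a g c x : G} (ha : a ∈ H) (ha1 : a ≠ 1) (hc : IsImg H a g c) (hx : x ∈ H) (hxc : x ≠ c) :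
    (χ : G → ℂ) (x * (g * a * g⁻¹)) = (χ : G → ℂ) (x * c) := by
  haveI : Fact (Nat.Prime 2) := ⟨Nat.prime_two⟩
  have hcl := Char.irr_isClassFunction χ.2
  obtain ⟨K, hK, hn, k₀, hk₀, hkg⟩ := exists_decomp hH hQ g
  set n := k₀⁻¹ * g with hn'
  have hce : n * a * n⁻¹ = c := by
    obtain ⟨c', hc', m, hm, hmc⟩ := exists_img hH hel hQ ha g
    have hnH : n * a * n⁻¹ ∈ H := (mem_normalizer_iff.1 hkg a).1 ha
    refine (img_unique hH hQ ha ⟨hnH, odd_order_of_mem hK ?_⟩ hc)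
    rw [show g * a * g⁻¹ * (n * a * n⁻¹) = k₀ * ((n * a * n⁻¹) * k₀⁻¹ * (n * a * n⁻¹)) by rw [hn']; group]
    refine K.mul_mem hk₀ ?_
    have h := (mem_normalizer_iff.1 (hn hnH) k₀⁻¹).1 (K.inv_mem hk₀)
    rwa [inv_eq_of_mul_eq_one_right (hel _ hnH)] at h
  by_cases hx1 : x = 1
  · subst hx1
    rw [one_mul, one_mul, ← hce]
    exact Char.isClassFunction_eq_of_isConj hcl (isConj_iff.2 ⟨n * g⁻¹, by group⟩)
  set b := g * a * g⁻¹ with hb
  have hbc : b = k₀ * c * k₀⁻¹ := by rw [← hce, hn', hb]; group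
  have hxx := hel x hx
  have hbb : b * b = 1 := by
    rw [hb, show g * a * g⁻¹ * (g * a * g⁻¹) = g * (a * a) * g⁻¹ by group, hel a ha, mul_one, mul_inv_cancel]
  set v := x * c with hv
  have hvH : v ∈ H := H.mul_mem hx hc.1
  have hvv : v * v = 1 := hel v hvH
  have hv1 : v ≠ 1 := fun h => hxc (by
    rw [← inv_eq_of_mul_eq_one_right (hel c hc.1)]; exact eq_inv_of_mul_eq_one_left h)
  -- `x b = k v` with `k` in `K`
  obtain ⟨k, hk, hkv⟩ : ∃ k ∈ K, x * b = k * v := by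
    refine ⟨x * k₀ * x⁻¹ * (v * k₀⁻¹ * v⁻¹), K.mul_mem ((mem_normalizer_iff.1 (hn hx) k₀).1 hk₀)
      ((mem_normalizer_iff.1 (hn hvH) _).1 (K.inv_mem hk₀)), ?_⟩
    rw [hbc, hv]; group
  set w := x * b with hw
  have hw2 : w ^ 2 ∈ K := by
    rw [hkv, pow_two, show k * v * (k * v) = k * (v * k * v⁻¹) * (v * v) by group, hvv, mul_one]
    exact K.mul_mem hk ((mem_normalizer_iff.1 (hn hvH) k).1 hk)
  obtain ⟨j, hj⟩ := odd_order_of_mem hK hw2
  set m := orderOf (w ^ 2) with hm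
  set z := w ^ m with hz
  have hwm : w ^ (2 * m) = 1 := by rw [pow_mul, hm, pow_orderOf_eq_one]
  have hzz : z * z = 1 := by rw [hz, ← pow_add, ← two_mul, hwm]
  obtain ⟨k', hk', hzv⟩ : ∃ k' ∈ K, z = k' * v :=
    ⟨(w ^ 2) ^ j * k, K.mul_mem (K.pow_mem hw2 j) hk, by rw [hz, hj, pow_succ, pow_mul, hkv]; group⟩
  have hz1 : z ≠ 1 := fun h => hv1 (eq_one_of_pow_two hK (n := 1) (by
    rw [h] at hzv
    rw [eq_inv_of_mul_eq_one_right hzv.symm]; exact K.inv_mem hk') (by rw [pow_one, pow_two, hvv]))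
  have hz2 : orderOf z = 2 := Invol.orderOf_eq_two hzz hz1
  have hzX : z ∈ K ⊔ H := hzv ▸ (K ⊔ H).mul_mem (mem_sup_left hk') (mem_sup_right hvH)
  -- `z` is conjugate to `v`
  obtain ⟨l, hl, hlz⟩ := exists_conj_mem hH hK hn (S := zpowers z)
    (IsPGroup.of_card (n := 1) (by rw [Nat.card_zpowers, hz2, pow_one])) (zpowers_le.2 hzX)
  have hlv : l⁻¹ * z * l = v := by
    have h0 := hlz z (mem_zpowers z)
    have h1 : l⁻¹ * z * l * v⁻¹ ∈ K := by
      rw [hzv, show l⁻¹ * (k' * v) * l * v⁻¹ = l⁻¹ * k' * (v * l * v⁻¹) by group]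
      exact K.mul_mem (K.mul_mem (K.inv_mem hl) hk') ((mem_normalizer_iff.1 (hn hvH) l).1 hl)
    exact mul_inv_eq_one.1 (eq_one_of_pow_two hK h1 (n := 1)
      (by rw [pow_one, pow_two]; exact hel _ (H.mul_mem h0 (H.inv_mem hvH))))
  have hzc : z ∉ center G := fun h => hv1 (hZ v hvH (by
    rw [← hlv, show l⁻¹ * z * l = l⁻¹ * (z * l) by group, ← Subgroup.mem_center_iff.1 h l, inv_mul_cancel_left]
    exact h))
  -- both factors commute with `z`
  have hxw : x * w * x⁻¹ = w⁻¹ := by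
    rw [hw, _root_.mul_inv_rev, inv_eq_of_mul_eq_one_right hbb, inv_eq_of_mul_eq_one_right hxx, ← mul_assoc, hxx, one_mul]
  have hxz : Commute x z := by
    have h1 : x * z * x⁻¹ = z := by
      rw [hz, ← conj_pow, hxw, inv_pow, ← hz, inv_eq_of_mul_eq_one_right hzz]
    exact mul_inv_eq_iff_eq_mul.1 h1
  have hwz : Commute w z := Commute.self_pow w m
  have hbz : Commute b z := by
    have : b = x * w := by rw [hw, ← mul_assoc, hxx, one_mul]
    rw [this]; exact hxz.mul_left hwz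
  have hconj : ∀ y : G, y * y = 1 → y ∈ K ⊔ H → Commute y z →
      ∃ l : G, (∀ h ∈ H, Commute (l * h * l⁻¹) z) ∧ l⁻¹ * y * l ∈ H := by
    intro y hyy hyX hyz
    have hp : IsPGroup 2 (zpowers y ⊔ zpowers z : Subgroup G) := by
      refine IsPGroup.to_sup_of_normal_right' ?_ (IsPGroup.of_card (n := 1) (by rw [Nat.card_zpowers, hz2, pow_one])) ?_
      · intro q
        refine ⟨1, Subtype.ext ?_⟩
        obtain ⟨i, hi⟩ := mem_zpowers_iff.1 q.2
        push_cast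
        rw [← hi, pow_two, ← (Commute.refl y).mul_zpow, hyy, one_zpow]
      · rw [zpowers_le]
        refine mem_normalizer_of_conj_mem fun u hu => ?_
        obtain ⟨i, rfl⟩ := mem_zpowers_iff.1 hu
        rw [(hyz.zpow_right i).eq, mul_inv_cancel_right]
        exact zpow_mem (mem_zpowers z) i
    obtain ⟨l, -, hls⟩ := exists_conj_mem hH hK hn hp (sup_le (zpowers_le.2 hyX) (zpowers_le.2 hzX))
    refine ⟨l, fun h hh => ?_, hls y (mem_sup_left (mem_zpowers y))⟩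
    have hzH := hls z (mem_sup_right (mem_zpowers z))
    have e := hcm h hh _ hzH
    show l * h * l⁻¹ * z = z * (l * h * l⁻¹)
    calc l * h * l⁻¹ * z = l * (h * (l⁻¹ * z * l)) * l⁻¹ := by group
      _ = l * ((l⁻¹ * z * l) * h) * l⁻¹ := by rw [e]
      _ = _ := by group
  have hbX : b ∈ K ⊔ H := by
    rw [hbc]
    exact (K ⊔ H).mul_mem ((K ⊔ H).mul_mem (mem_sup_left hk₀) (mem_sup_right hc.1))
      ((K ⊔ H).inv_mem (mem_sup_left hk₀))
  obtain ⟨l₁, hl₁, hx'⟩ := hconj x hxx (mem_sup_right hx) hxz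
  obtain ⟨l₂, hl₂, hb'⟩ := hconj b hbb hbX hbz
  have hy : w ^ (m + 1) ∈ centralizerPPrimeCore 2 z := by
    rw [show m + 1 = 2 * (j + 1) by omega, pow_mul]
    exact pow_mem (hloc z hz2 hzc l₁ l₂ hl₁ hl₂ x b hx' hb') _
  have hwe : w = z * w ^ (m + 1) := by
    rw [hz, ← pow_add, show m + (m + 1) = 2 * m + 1 by omega, pow_succ, hwm, one_mul]
  rw [hwe, Invol.sectionConst G M hM χ hχ z hz2 _ hy]
  exact Char.isClassFunction_eq_of_isConj hcl (isConj_iff.2 ⟨l⁻¹, by rw [inv_inv]; exact hlv⟩)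

end Cfsg.Agent.LAE62.ExtClosed
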